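import Cfsg.Agent.SchurG.A8.Main
import Cfsg.Agent.Comp.Mat2

set_option autoImplicit false
set_option maxRecDepth 100000

namespace Cfsg.Agent.SchurG.A8
open Cfsg.Agent.Comp Equiv

/-- the letters as permutations -/
def tb : List (List (Fin 8)) :=
  [[0, 1, 2, 3, 4, 6, 7, 5],
   [0, 1, 2, 3, 4, 7, 5, 6],
   [0, 1, 2, 3, 7, 6, 5, 4],
   [0, 1, 2, 4, 3, 6, 5, 7],
   [1, 0, 7, 3, 4, 5, 6, 2],
   [4, 1, 2, 3, 0, 7, 6, 5]]

def cy (x : ℕ) : Perm (Fin 8) :=
  ⟨fun i => (tb.getD (x % 6) []).getD i 0, fun i => (tb.getD (([1, 0, 2, 3, 4, 5] : List ℕ).getD (x % 6) 0) []).getD i 0,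
    (by decide : ∀ y < 6, Function.LeftInverse (fun i : Fin 8 => (tb.getD (([1, 0, 2, 3, 4, 5] : List ℕ).getD y 0) []).getD i 0)
      fun i : Fin 8 => (tb.getD y []).getD i 0) _ (Nat.mod_lt _ (by norm_num)),
    (by decide : ∀ y < 6, Function.RightInverse (fun i : Fin 8 => (tb.getD (([1, 0, 2, 3, 4, 5] : List ℕ).getD y 0) []).getD i 0)
      fun i : Fin 8 => (tb.getD y []).getD i 0) _ (Nat.mod_lt _ (by norm_num))⟩

theorem satC : Sat cy R := by
  intro w hw
  exact Equiv.ext ((by decide +kernel : ∀ w ∈ R, ∀ i, ev cy w i = i) w hw)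

theorem cy_mem : ∀ x < 6, ∃ g, (alternatingGroup (Fin 8)).subtype g = cy x := fun x hx =>
  ⟨⟨cy x, Perm.mem_alternatingGroup.mpr ((by decide +kernel : ∀ x < 6, Perm.sign (cy x) = 1) x hx)⟩, rfl⟩

theorem iso : Nonempty (G ≃* alternatingGroup (Fin 8)) := by
  have := simple
  have := card.1
  refine ⟨(pres.equiv_of_card hR _ (sat_liftS (Subgroup.subtype_injective _) cy_mem hR satC)
    (x := 0) (by norm_num) (fun c => ?_) ?_).choose⟩
  · have h := liftS_val (cy_mem 0 (by norm_num))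
    rw [c, map_one] at h
    exact absurd h (by decide)
  · have := two_mul_nat_card_alternatingGroup (α := Fin 8)
    rw [Nat.card_perm, Nat.card_fin] at this
    rw [card.2.1]
    norm_num [Nat.factorial] at this ⊢
    omega

end Cfsg.Agent.SchurG.A8
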